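import Mathlib
import Cfsg.Agent.H821.K547.Defs

/-!
# S4547: `D3` from a perfect normal subgroup of index 2 (helper281)

* `exists_sq` : `N` perfect of index 2 in `G`, `P` a Sylow 2-subgroup of `G`: some `u ∈ P - N` has `u ^ 2 ∈ P'` (transfer);
* `d3_of_perfect` : `D3 N → D3 G`.
-/

set_option autoImplicit false

namespace Cfsg.Agent.H281.K547

open Subgroup Cfsg.Agent.H821.K547

universe u

section Transfer

variable {G : Type*} [Group G] {B : Type*} [CommGroup B]

open leftTransversals MulAction in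
/-- the transfer of a restricted homomorphism -/
theorem transfer_restrict (H : Subgroup G) [H.FiniteIndex] (ν : G →* B) (g : G) :
    MonoidHom.transfer (ν.comp H.subtype) g = ν g ^ H.index := by
  let T : H.LeftTransversal := default
  have h1 := MonoidHom.transfer_def (ν.comp H.subtype) T g
  rw [h1]
  let _ := H.fintypeQuotientOfFiniteIndex
  have h2 : diff (ν.comp H.subtype) T (g • T) =
      ∏ q : G ⧸ H, ((ν (T.2.leftQuotientEquiv q : G))⁻¹ * (ν g * ν (T.2.leftQuotientEquiv (g⁻¹ • q) : G))) := by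
    refine Finset.prod_congr rfl fun q _ => ?_
    show ν ((T.2.leftQuotientEquiv q : G)⁻¹ * ((g • T).2.leftQuotientEquiv q : G)) = _
    rw [smul_apply_eq_smul_apply_inv_smul, smul_eq_mul, map_mul, map_inv, map_mul]
  rw [h2, Finset.prod_mul_distrib, Finset.prod_mul_distrib, Finset.prod_inv_distrib, Finset.prod_const]
  have h3 : ∏ q : G ⧸ H, ν (T.2.leftQuotientEquiv (g⁻¹ • q) : G) = ∏ q : G ⧸ H, ν (T.2.leftQuotientEquiv q : G) :=
    Fintype.prod_equiv (MulAction.toPerm g⁻¹) _ _ fun q => rfl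
  rw [h3, Finset.card_univ, ← Nat.card_eq_fintype_card, ← Subgroup.index]
  rw [mul_comm, mul_assoc, mul_inv_cancel, mul_one]

/-- naturality of the transfer -/
theorem transfer_comp {A : Type*} [CommGroup A] (H : Subgroup G) [H.FiniteIndex] (ϕ : H →* A) (π : A →* B) (g : G) :
    π (MonoidHom.transfer ϕ g) = MonoidHom.transfer (π.comp ϕ) g := by
  let T : H.LeftTransversal := default
  rw [MonoidHom.transfer_def ϕ T g, MonoidHom.transfer_def (π.comp ϕ) T g]
  exact map_prod π _ _

end Transfer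

section Two

/-- the group of order 2 -/
abbrev C2 : Type := Multiplicative (ZMod 2)

theorem c2_sq (x : C2) : x * x = 1 := by
  revert x
  decide

theorem c2_cases (x : C2) : x = 1 ∨ x = Multiplicative.ofAdd 1 := by
  revert x
  decide

variable {G : Type*} [Group G]

theorem exists_sign {N : Subgroup G} [N.Normal] (hi : N.index = 2) : ∃ ν : G →* C2, ν.ker = N := by
  have h1 : Nat.card (G ⧸ N) = 2 := hi
  have h2 : Nat.card C2 = 2 := by simp [C2]
  have : Fact (Nat.Prime 2) := ⟨Nat.prime_two⟩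
  let e : (G ⧸ N) ≃* C2 := mulEquivOfPrimeCardEq (p := 2) h1 h2
  refine ⟨e.toMonoidHom.comp (QuotientGroup.mk' N), ?_⟩
  ext x
  rw [MonoidHom.mem_ker, MonoidHom.comp_apply]
  show e _ = 1 ↔ _
  rw [map_eq_one_iff e e.injective]
  exact QuotientGroup.eq_one_iff x

/-- the transfer to `P / P'` is trivial on a perfect subgroup -/
theorem eq_one_of_perfect {A : Type*} [CommGroup A] {N : Subgroup G} (hp : commutator N = ⊤) (f : G →* A) {x : G}
    (hx : x ∈ N) : f x = 1 := by
  have h1 : (⊤ : Subgroup N) ≤ (f.comp N.subtype).ker := by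
    rw [← hp]
    exact Abelianization.commutator_subset_ker _
  exact h1 (mem_top (⟨x, hx⟩ : N))

variable [Finite G]

theorem exists_sq (N : Subgroup G) [N.Normal] (hi : N.index = 2) (hp : commutator N = ⊤) (P : Sylow 2 G) :
    ∃ u : P, (u : G) ∉ N ∧ u ^ 2 ∈ commutator P := by
  obtain ⟨ν, hν⟩ := exists_sign hi
  have : Fact (Nat.Prime 2) := ⟨Nat.prime_two⟩
  have hodd : ¬ 2 ∣ (P : Subgroup G).index := P.not_dvd_index
  -- an element outside `N`
  have hPN : ¬ (P : Subgroup G) ≤ N := by
    intro h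
    apply hodd
    rw [← Subgroup.relIndex_mul_index h, hi]
    exact dvd_mul_left _ _
  obtain ⟨t, htP, htN⟩ := SetLike.not_le_iff_exists.1 hPN
  let π : Abelianization P →* C2 := Abelianization.lift (ν.comp (P : Subgroup G).subtype)
  have hπ : π.comp (Abelianization.of (G := P)) = ν.comp (P : Subgroup G).subtype :=
    MonoidHom.ext fun x => show π (Abelianization.of x) = _ from
      Abelianization.lift_apply_of (ν.comp (P : Subgroup G).subtype) x
  let τ : G →* Abelianization P := MonoidHom.transfer (Abelianization.of (G := P))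
  have h1 : π (τ t) = ν t := by
    rw [show π (τ t) = MonoidHom.transfer (π.comp (Abelianization.of (G := P))) t from transfer_comp _ _ _ _, hπ,
      transfer_restrict]
    obtain ⟨m, hm⟩ := Nat.odd_iff.2 (Nat.two_dvd_ne_zero.1 hodd)
    rw [hm, pow_add, pow_mul, pow_two, c2_sq, one_pow, one_mul, pow_one]
  have h2 : τ t ^ 2 = 1 := by
    rw [← map_pow]
    refine eq_one_of_perfect hp τ ?_
    rw [← hν, MonoidHom.mem_ker, map_pow, pow_two, c2_sq]
  obtain ⟨u, hu⟩ : ∃ u : P, Abelianization.of u = τ t := QuotientGroup.mk_surjective _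
  refine ⟨u, ?_, ?_⟩
  · intro h
    apply htN
    rw [← hν, MonoidHom.mem_ker] at h ⊢
    rw [← h1, ← hu]
    exact (Abelianization.lift_apply_of _ u).trans h
  · rw [← Abelianization.ker_of, MonoidHom.mem_ker, map_pow, hu, h2]

end Two

section Hom

variable {P : Type u} [Group P] [Finite P]

theorem finite_hom : Finite (P →* C2) :=
  Finite.of_injective (fun f : P →* C2 => (f : P → C2)) DFunLike.coe_injective

/-- many homomorphisms onto the group of order 2 -/
theorem rk_of_card {n : ℕ} (h : 2 ^ n < Nat.card (P →* C2)) : Rk (n + 1) P := by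
  classical
  let V := Additive (P →* C2)
  have hV : ∀ x : V, 2 • x = 0 := by
    intro x
    rw [two_nsmul]
    apply Additive.toMul.injective
    refine MonoidHom.ext fun p => ?_
    exact c2_sq _
  let _ : Module (ZMod 2) V := AddCommGroup.zmodModule hV
  have hfin : Finite V := finite_hom
  have hmf : Module.Finite (ZMod 2) V := Module.Finite.of_finite
  have hcard : Nat.card V = 2 ^ Module.finrank (ZMod 2) V := by
    rw [Module.natCard_eq_pow_finrank (K := ZMod 2), Nat.card_zmod]
  have hle : n + 1 ≤ Module.finrank (ZMod 2) V := by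
    have h1 : 2 ^ n < 2 ^ Module.finrank (ZMod 2) V := by
      rw [← hcard]
      exact h
    exact (Nat.pow_lt_pow_iff_right (by norm_num)).1 h1
  obtain ⟨v, hv⟩ : ∃ v : Fin (n + 1) → V, LinearIndependent (ZMod 2) v := by
    let b := Module.finBasis (ZMod 2) V
    exact ⟨b ∘ Fin.castLE hle, b.linearIndependent.comp _ (Fin.castLE_injective hle)⟩
  let E : P → V →+ ZMod 2 := fun p =>
    { toFun := fun x => Multiplicative.toAdd ((Additive.toMul x) p)
      map_zero' := rfl
      map_add' := fun x y => rfl }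
  let g : Additive P →+ (Fin (n + 1) → ZMod 2) :=
    { toFun := fun p i => E (Additive.toMul p) (v i)
      map_zero' := by
        funext i
        show Multiplicative.toAdd ((Additive.toMul (v i)) 1) = 0
        rw [map_one]
        rfl
      map_add' := fun p q => by
        funext i
        show Multiplicative.toAdd ((Additive.toMul (v i)) (Additive.toMul p * Additive.toMul q)) = _
        rw [map_mul]
        rfl }
  refine ⟨MonoidHom.toAdditiveLeft.symm g, ?_⟩
  have htop : AddSubgroup.toZModSubmodule 2 g.range = ⊤ := by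
    by_contra hne
    obtain ⟨φ, hφ, hle⟩ := Submodule.exists_le_ker_of_lt_top _ (lt_top_iff_ne_top.2 hne)
    have h1 : ∑ i, φ (Pi.single i 1) • v i = 0 := by
      apply Additive.toMul.injective
      refine MonoidHom.ext fun p => ?_
      apply Multiplicative.toAdd.injective
      show (E p).toZModLinearMap 2 (∑ i, φ (Pi.single i 1) • v i) = 0
      rw [map_sum]
      have h2 : φ (g (Additive.ofMul p)) = 0 := by
        have h3 : g (Additive.ofMul p) ∈ AddSubgroup.toZModSubmodule 2 g.range := ⟨_, rfl⟩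
        exact hle h3
      rw [← h2]
      conv_rhs => rw [← Finset.univ_sum_single (g (Additive.ofMul p)), map_sum]
      refine Finset.sum_congr rfl fun i _ => ?_
      rw [map_smul]
      have h4 : (Pi.single i (g (Additive.ofMul p) i) : Fin (n + 1) → ZMod 2) =
          (g (Additive.ofMul p) i) • Pi.single i (1 : ZMod 2) := by
        rw [← Pi.single_smul, smul_eq_mul, mul_one]
      rw [h4, map_smul, smul_eq_mul, smul_eq_mul, mul_comm]
      rfl
    apply hφ
    have h5 : ∀ i, φ (Pi.single i 1) = 0 := fun i => (Fintype.linearIndependent_iff.1 hv) _ h1 i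
    refine LinearMap.pi_ext' fun i => ?_
    ext
    simpa using h5 i
  intro y
  have h6 : Multiplicative.toAdd y ∈ AddSubgroup.toZModSubmodule 2 g.range := by rw [htop]; trivial
  obtain ⟨p, hp⟩ := h6
  exact ⟨Additive.toMul p, congrArg Multiplicative.ofAdd hp⟩

theorem card_of_rk {n : ℕ} (h : Rk n P) : 2 ^ n ≤ Nat.card (P →* C2) := by
  classical
  obtain ⟨f, hf⟩ := h
  have hfin : Finite (P →* C2) := finite_hom
  let E : (Fin n → ZMod 2) → (P →* C2) := fun a =>
    { toFun := fun p => Multiplicative.ofAdd (∑ i, a i * Multiplicative.toAdd (f p) i)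
      map_one' := by
        rw [map_one]
        simp
      map_mul' := fun p q => by
        rw [map_mul, ← ofAdd_add, ← Finset.sum_add_distrib]
        congr 1
        refine Finset.sum_congr rfl fun i _ => ?_
        rw [← mul_add]
        rfl }
  have hE : Function.Injective E := by
    intro a b hab
    funext i
    obtain ⟨p, hp⟩ := hf (Multiplicative.ofAdd (Pi.single i 1))
    have h1 : (E a) p = (E b) p := by rw [hab]
    have h2 : ∀ c : Fin n → ZMod 2, Multiplicative.toAdd ((E c) p) = c i := by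
      intro c
      show ∑ j, c j * Multiplicative.toAdd (f p) j = c i
      rw [hp, Finset.sum_eq_single i]
      · simp
      · intro j _ hj
        simp [Pi.single_eq_of_ne hj]
      · intro h
        exact absurd (Finset.mem_univ i) h
    rw [← h2 a, ← h2 b, h1]
  have h3 : Nat.card (Fin n → ZMod 2) = 2 ^ n := by
    rw [Nat.card_fun, Nat.card_eq_fintype_card, Nat.card_eq_fintype_card, ZMod.card, Fintype.card_fin]
  rw [← h3]
  exact Nat.card_le_card_of_injective E hE

end Hom

section Ext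

variable {P : Type u} [Group P] [Finite P]

/-- conjugation on a normal subgroup -/
def cj (Q : Subgroup P) [Q.Normal] (u : P) : Q →* Q where
  toFun x := ⟨u * x * u⁻¹, Normal.conj_mem inferInstance _ x.2 u⟩
  map_one' := Subtype.ext (by simp)
  map_mul' x y := Subtype.ext (by
    show u * (x * y : P) * u⁻¹ = u * x * u⁻¹ * (u * y * u⁻¹)
    group)

omit [Finite P] in
theorem cj_apply (Q : Subgroup P) [Q.Normal] (u : P) (x : Q) : (cj Q u x : P) = u * x * u⁻¹ := rfl

variable {Q : Subgroup P} [Q.Normal] {lam : Q →* C2}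

omit [Finite P] in
theorem inner_inv (lam : Q →* C2) (p : Q) (x : Q) : lam (cj Q p x) = lam x := by
  have h1 : cj Q p x = p * x * p⁻¹ := Subtype.ext (by rw [cj_apply]; rfl)
  rw [h1, map_mul, map_mul, mul_comm (lam p), mul_assoc, ← map_mul, mul_inv_cancel, map_one, mul_one]

omit [Finite P] [Q.Normal] in
theorem mem_or (hi : Q.index = 2) {u : P} (hu : u ∉ Q) (p : P) : p ∈ Q ∨ p * u⁻¹ ∈ Q := by
  by_cases h : p ∈ Q
  · exact Or.inl h
  · right
    have h2 := Subgroup.mul_mem_iff_of_index_two hi (a := p) (b := u⁻¹)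
    rw [h2, inv_mem_iff]
    exact ⟨fun h3 => absurd h3 h, fun h3 => absurd h3 hu⟩

omit [Finite P] in
theorem inv_all (hi : Q.index = 2) {u : P} (hu : u ∉ Q) (hl : ∀ x, lam (cj Q u x) = lam x) (p : P) (x : Q) :
    lam (cj Q p x) = lam x := by
  rcases mem_or hi hu p with h | h
  · exact inner_inv lam ⟨p, h⟩ x
  · have h1 : cj Q p x = cj Q (⟨p * u⁻¹, h⟩ : Q) (cj Q u x) := Subtype.ext (by
      rw [cj_apply, cj_apply, cj_apply]
      show _ = p * u⁻¹ * (u * x * u⁻¹) * (p * u⁻¹)⁻¹
      group)
    rw [h1, inner_inv, hl]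

omit [Finite P] in
/-- an invariant homomorphism is trivial on `P'` -/
theorem comm_ker (hi : Q.index = 2) {u : P} (hu : u ∉ Q) (hl : ∀ x, lam (cj Q u x) = lam x) {x : P}
    (hx : x ∈ commutator P) : ∃ h : x ∈ Q, lam ⟨x, h⟩ = 1 := by
  have key : ∀ a : Q, ∀ b : P, ∀ h : (a : P) * b * (a : P)⁻¹ * b⁻¹ ∈ Q, lam ⟨a * b * (a : P)⁻¹ * b⁻¹, h⟩ = 1 := by
    intro a b h
    have h1 : (⟨a * b * (a : P)⁻¹ * b⁻¹, h⟩ : Q) = a * cj Q b a⁻¹ := Subtype.ext (by
      show _ = (a : P) * (b * ((a⁻¹ : Q) : P) * b⁻¹)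
      rw [InvMemClass.coe_inv]
      group)
    rw [h1, map_mul, inv_all hi hu hl, ← map_mul, mul_inv_cancel, map_one]
  let K : Subgroup P := lam.ker.map Q.subtype
  have hK : ∀ y : P, y ∈ K ↔ ∃ h : y ∈ Q, lam ⟨y, h⟩ = 1 := by
    intro y
    constructor
    · rintro ⟨z, hz, rfl⟩
      exact ⟨z.2, hz⟩
    · rintro ⟨h, h1⟩
      exact ⟨⟨y, h⟩, h1, rfl⟩
  rw [← hK]
  have hle : commutator P ≤ K := by
    rw [commutator_def, commutator_le]
    intro a _ b _
    rw [hK, commutatorElement_def]
    have hc : a * b * a⁻¹ * b⁻¹ ∈ Q := by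
      rw [mul_mem_iff_of_index_two hi, mul_mem_iff_of_index_two hi, mul_mem_iff_of_index_two hi, inv_mem_iff,
        inv_mem_iff]
      tauto
    refine ⟨hc, ?_⟩
    by_cases ha : a ∈ Q
    · exact key ⟨a, ha⟩ b hc
    · have hq : a * b⁻¹ ∈ Q ∨ b ∈ Q := by
        by_cases hb : b ∈ Q
        · exact Or.inr hb
        · left
          rw [mul_mem_iff_of_index_two hi, inv_mem_iff]
          exact ⟨fun h => absurd h ha, fun h => absurd h hb⟩
      rcases hq with hq | hb
      · have h2 : a * b * a⁻¹ * b⁻¹ = (a * b⁻¹) * b * (a * b⁻¹)⁻¹ * b⁻¹ := by group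
        have h3 := key ⟨a * b⁻¹, hq⟩ b (by rw [← h2]; exact hc)
        rw [← h3]
        congr 1
        exact Subtype.ext h2
      · have h2 : a * b * a⁻¹ * b⁻¹ = (b * a * b⁻¹ * a⁻¹)⁻¹ := by group
        have h3 := key ⟨b, hb⟩ a (by rw [← inv_mem_iff, ← h2]; exact hc)
        have h4 : (⟨a * b * a⁻¹ * b⁻¹, hc⟩ : Q) = (⟨b * a * b⁻¹ * a⁻¹, by rw [← inv_mem_iff, ← h2]; exact hc⟩ : Q)⁻¹ :=
          Subtype.ext h2
        rw [h4, map_inv, h3, inv_one]
  exact hle hx

/-- the extension of an invariant homomorphism -/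
theorem exists_ext (hi : Q.index = 2) {u : P} (hu : u ∉ Q) (hu2 : u ^ 2 ∈ commutator P)
    (hl : ∀ x, lam (cj Q u x) = lam x) : ∃ μ : P →* C2, (∀ x : Q, μ x = lam x) ∧ μ u = 1 := by
  classical
  obtain ⟨h2Q, h2⟩ := comm_ker hi hu hl hu2
  have hm : ∀ {p : P}, p ∉ Q → p * u⁻¹ ∈ Q := fun h => (mem_or hi hu _).resolve_left h
  let f : P → C2 := fun p => if h : p ∈ Q then lam ⟨p, h⟩ else lam ⟨p * u⁻¹, hm h⟩
  have f1 : ∀ p (h : p ∈ Q), f p = lam ⟨p, h⟩ := fun p h => dif_pos h
  have f2 : ∀ p (h : p ∉ Q), f p = lam ⟨p * u⁻¹, hm h⟩ := fun p h => dif_neg h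
  have hmul : ∀ p q, f (p * q) = f p * f q := by
    intro p q
    have hpq := mul_mem_iff_of_index_two hi (a := p) (b := q)
    by_cases hp : p ∈ Q <;> by_cases hq : q ∈ Q
    · have h3 : p * q ∈ Q := hpq.2 (by tauto)
      rw [f1 _ h3, f1 _ hp, f1 _ hq, ← map_mul]
      rfl
    · have h3 : p * q ∉ Q := fun h => by rw [hpq] at h; tauto
      rw [f2 _ h3, f1 _ hp, f2 _ hq, ← map_mul]
      congr 1
      exact Subtype.ext (mul_assoc _ _ _)
    · have h3 : p * q ∉ Q := fun h => by rw [hpq] at h; tauto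
      rw [f2 _ h3, f2 _ hp, f1 _ hq, ← hl ⟨q, hq⟩, ← map_mul]
      congr 1
      apply Subtype.ext
      show p * q * u⁻¹ = p * u⁻¹ * (u * q * u⁻¹)
      group
    · have h3 : p * q ∈ Q := hpq.2 (by tauto)
      have h4 : (⟨p * q, h3⟩ : Q) = ⟨p * u⁻¹, hm hp⟩ * cj Q u ⟨q * u⁻¹, hm hq⟩ * ⟨u ^ 2, h2Q⟩ := by
        apply Subtype.ext
        show p * q = p * u⁻¹ * (u * (q * u⁻¹) * u⁻¹) * u ^ 2
        rw [pow_two]
        group
      rw [f1 _ h3, f2 _ hp, f2 _ hq, h4, map_mul, map_mul, hl, h2, mul_one]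
  refine ⟨MonoidHom.mk' f hmul, fun x => f1 _ x.2, ?_⟩
  show f u = 1
  rw [f2 _ hu]
  have : (⟨u * u⁻¹, hm hu⟩ : Q) = 1 := Subtype.ext (mul_inv_cancel u)
  rw [this, map_one]

/-- **a normal subgroup of index 2 of rank 3** -/
theorem rk_of_index_two (hi : Q.index = 2) {u : P} (hu : u ∉ Q) (hu2 : u ^ 2 ∈ commutator P) (h : Rk 3 Q) :
    Rk 3 P := by
  classical
  have hL := card_of_rk h
  have hfin : Finite (Q →* C2) := finite_hom
  have hfin' : Finite (P →* C2) := finite_hom
  let σ : (Q →* C2) →* (Q →* C2) :=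
    { toFun := fun l => l.comp (cj Q u)
      map_one' := rfl
      map_mul' := fun _ _ => rfl }
  have hσ : ∀ (l : Q →* C2) x, σ l x = l (cj Q u x) := fun _ _ => rfl
  let θ : (Q →* C2) →* (Q →* C2) := MonoidHom.id _ * σ
  have hθ : ∀ (l : Q →* C2) x, θ l x = l x * l (cj Q u x) := fun _ _ => rfl
  have hker : ∀ l : Q →* C2, l ∈ θ.ker ↔ ∀ x, l (cj Q u x) = l x := by
    intro l
    rw [MonoidHom.mem_ker]
    constructor
    · intro h1 x
      have h2 : l x * l (cj Q u x) = 1 := by rw [← hθ, h1]; rfl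
      calc l (cj Q u x) = (l x * l x) * l (cj Q u x) := by rw [c2_sq, one_mul]
        _ = l x * (l x * l (cj Q u x)) := by rw [mul_assoc]
        _ = l x := by rw [h2, mul_one]
    · intro h1
      refine MonoidHom.ext fun x => ?_
      rw [hθ, h1, c2_sq]
      rfl
  have hu2Q : u ^ 2 ∈ Q := by
    rw [pow_two, mul_mem_iff_of_index_two hi]
  have hrange : θ.range ≤ θ.ker := by
    rintro _ ⟨l, rfl⟩
    rw [hker]
    intro x
    rw [hθ, hθ]
    have h1 : l (cj Q u (cj Q u x)) = l x := by
      have h2 : cj Q u (cj Q u x) = cj Q ((⟨u ^ 2, hu2Q⟩ : Q) : P) x := Subtype.ext (by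
        rw [cj_apply, cj_apply, cj_apply]
        show _ = u ^ 2 * x * (u ^ 2)⁻¹
        rw [pow_two]
        group)
      rw [h2, inner_inv]
    rw [h1, mul_comm]
  have hcard : Nat.card (Q →* C2) = Nat.card θ.ker * Nat.card θ.range := by
    rw [← Subgroup.index_ker θ]
    exact (Subgroup.card_mul_index θ.ker).symm
  have hle : Nat.card θ.range ≤ Nat.card θ.ker := Nat.card_le_card_of_injective _ (Subgroup.inclusion_injective hrange)
  have h3 : 2 < Nat.card θ.ker := by
    by_contra hcon
    push Not at hcon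
    have : Nat.card θ.ker * Nat.card θ.range ≤ 2 * 2 := Nat.mul_le_mul hcon (hle.trans hcon)
    rw [← hcard] at this
    norm_num at hL
    omega
  refine rk_of_card (n := 2) ?_
  obtain ⟨ε, hε⟩ := exists_sign hi
  have hεu : ε u ≠ 1 := fun h1 => hu (by rw [← hε]; exact h1)
  choose E hE1 hE2 using fun l : θ.ker => exists_ext hi hu hu2 ((hker l.1).1 l.2)
  let F : θ.ker × Bool → (P →* C2) := fun a => if a.2 then E a.1 * ε else E a.1
  have hF : Function.Injective F := by
    rintro ⟨l, i⟩ ⟨l', i'⟩ hh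
    have hQ : ∀ (a : θ.ker × Bool) (x : Q), F a x = a.1.1 x := by
      rintro ⟨a, j⟩ x
      have hεx : ε x = 1 := by
        have : (x : P) ∈ ε.ker := by rw [hε]; exact x.2
        exact this
      cases j
      · exact hE1 a x
      · show E a x * ε x = _
        rw [hεx, mul_one]
        exact hE1 a x
    have h4 : l = l' := by
      apply Subtype.ext
      refine MonoidHom.ext fun x => ?_
      rw [← hQ (l, i) x, ← hQ (l', i') x, hh]
    subst h4
    have hU : ∀ (a : θ.ker × Bool), F a u = 1 ↔ a.2 = false := by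
      rintro ⟨a, j⟩
      cases j
      · exact ⟨fun _ => rfl, fun _ => hE2 a⟩
      · constructor
        · intro h5
          exfalso
          apply hεu
          have h6 : E a u * ε u = 1 := h5
          rw [hE2, one_mul] at h6
          exact h6
        · intro h5
          exact absurd h5 (by simp)
    have h7 : i = false ↔ i' = false := by
      have e1 := hU (l, i)
      have e2 := hU (l, i')
      rw [hh] at e1
      exact e1.symm.trans e2
    cases i <;> cases i' <;> simp_all
  have h5 := Nat.card_le_card_of_injective F hF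
  rw [Nat.card_prod] at h5
  have h6 : Nat.card Bool = 2 := by simp
  rw [h6] at h5
  norm_num
  omega

end Ext

section Main

variable {G : Type u} [Group G] [Finite G]

/-- **`D3` from a perfect normal subgroup of index 2** -/
theorem d3_of_perfect (N : Subgroup G) [N.Normal] (hi : N.index = 2) (hp : commutator N = ⊤) (h : D3 N) : D3 G := by
  intro P
  have : Fact (Nat.Prime 2) := ⟨Nat.prime_two⟩
  obtain ⟨u, hu, hu2⟩ := exists_sq N hi hp P
  have h1 : N.relIndex P = 2 := by
    have h2 : N.relIndex P ∣ 2 := (relIndex_dvd_index_of_normal N (P : Subgroup G)).trans (dvd_of_eq hi)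
    rcases (Nat.dvd_prime Nat.prime_two).1 h2 with h3 | h3
    · exact absurd (relIndex_eq_one.1 h3 u.2) hu
    · exact h3
  have h2 : (P : Subgroup G).relIndex N = (P : Subgroup G).index := by
    have e1 := relIndex_mul_index (inf_le_right : (P : Subgroup G) ⊓ N ≤ N)
    have e2 := relIndex_mul_index (inf_le_left : (P : Subgroup G) ⊓ N ≤ P)
    rw [inf_relIndex_right, hi] at e1
    rw [inf_relIndex_left, h1] at e2
    omega
  have hpg : IsPGroup 2 ((P : Subgroup G).subgroupOf N) := P.2.comap_subtype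
  let S : Sylow 2 N := hpg.toSylow (by
    show ¬ 2 ∣ ((P : Subgroup G).relIndex N)
    rw [h2]
    exact P.not_dvd_index)
  have hS : (S : Subgroup N) = (P : Subgroup G).subgroupOf N := rfl
  obtain ⟨f, hf⟩ := h S
  -- the same group as a subgroup of `P`
  let e : ↥(N.subgroupOf P) →* ↥((P : Subgroup G).subgroupOf N) :=
    { toFun := fun x => ⟨⟨(x : P), x.2⟩, (x : P).2⟩
      map_one' := rfl
      map_mul' := fun _ _ => rfl }
  have he : Function.Surjective e := fun y => ⟨⟨⟨(y : N), y.2⟩, (y : N).2⟩, rfl⟩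
  have h3 : Rk 3 ↥(N.subgroupOf (P : Subgroup G)) := ⟨f.comp e, hf.comp he⟩
  exact rk_of_index_two (Q := N.subgroupOf P) h1 hu hu2 h3

end Main

end Cfsg.Agent.H281.K547
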